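import Mathlib

/-!
The power graph of a finite group determines its prime graph.
-/

set_option autoImplicit false
set_option linter.style.haveILetI false
set_option linter.unusedSectionVars false

namespace CfsgLib.PowerGraph

variable {G H : Type*} [Group G] [Finite G] [Group H] [Finite H]

/-- Adjacency (or equality) in the power graph. -/
def Adj (x y : G) : Prop := x ∈ Subgroup.zpowers y ∨ y ∈ Subgroup.zpowers x

theorem Adj.symm {x y : G} (h : Adj x y) : Adj y x := Or.symm h

omit [Finite G] in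
theorem adj_one (x : G) : Adj 1 x := Or.inl (one_mem _)

theorem zpowers_le_of_dvd {g u v : G} (hu : u ∈ Subgroup.zpowers g) (hv : v ∈ Subgroup.zpowers g)
    (h : orderOf u ∣ orderOf v) : u ∈ Subgroup.zpowers v := by
  classical
  haveI := Fintype.ofFinite (Subgroup.zpowers g)
  set u' : Subgroup.zpowers g := ⟨u, hu⟩ with hu'
  set v' : Subgroup.zpowers g := ⟨v, hv⟩ with hv'
  have h1 : (Finset.univ.filter fun z : Subgroup.zpowers g => z ^ orderOf v' = 1).card ≤ orderOf v' :=
    IsCyclic.card_pow_eq_one_le (orderOf_pos v')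
  have h2 : (Finset.univ.filter fun z => z ∈ Subgroup.zpowers v') ⊆ Finset.univ.filter fun z => z ^ orderOf v' = 1 := by
    intro z hz
    simp only [Finset.mem_filter, Finset.mem_univ, true_and] at hz ⊢
    exact orderOf_dvd_iff_pow_eq_one.1 (orderOf_dvd_of_mem_zpowers hz)
  have h3 : (Finset.univ.filter fun z => z ∈ Subgroup.zpowers v').card = orderOf v' := by
    rw [← Nat.card_zpowers v', Nat.card_eq_fintype_card, ← Fintype.card_subtype]
  have h4 := Finset.eq_of_subset_of_card_le h2 (h1.trans h3.ge)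
  have h5 : u' ∈ Finset.univ.filter fun z => z ∈ Subgroup.zpowers v' := by
    rw [h4, Finset.mem_filter]
    refine ⟨Finset.mem_univ _, orderOf_dvd_iff_pow_eq_one.1 ?_⟩
    rwa [hu', hv', Subgroup.orderOf_mk, Subgroup.orderOf_mk]
  obtain ⟨i, hi⟩ := Subgroup.mem_zpowers_iff.1 (Finset.mem_filter.1 h5).2
  exact Subgroup.mem_zpowers_iff.2 ⟨i, congrArg Subtype.val hi⟩

theorem adj_iff_dvd {g u v : G} (hu : u ∈ Subgroup.zpowers g) (hv : v ∈ Subgroup.zpowers g) :
    Adj u v ↔ (orderOf u ∣ orderOf v ∨ orderOf v ∣ orderOf u) :=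
  ⟨fun h => h.imp orderOf_dvd_of_mem_zpowers orderOf_dvd_of_mem_zpowers,
    fun h => h.imp (zpowers_le_of_dvd hu hv) (zpowers_le_of_dvd hv hu)⟩

theorem exists_mem_orderOf_eq {g : G} {k : ℕ} (hk : k ∣ orderOf g) :
    ∃ u ∈ Subgroup.zpowers g, orderOf u = k :=
  ⟨g ^ (orderOf g / k), Subgroup.npow_mem_zpowers g _, orderOf_pow_orderOf_div (orderOf_pos g).ne' hk⟩

theorem card_generators (y : G) :
    Nat.card {u : G // u ∈ Subgroup.zpowers y ∧ orderOf u = orderOf y} = (orderOf y).totient := by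
  classical
  haveI := Fintype.ofFinite (Subgroup.zpowers y)
  have h1 := IsCyclic.card_orderOf_eq_totient (α := Subgroup.zpowers y) (d := orderOf y)
    (by rw [← Nat.card_eq_fintype_card, Nat.card_zpowers])
  rw [← h1, ← Fintype.card_subtype, ← Nat.card_eq_fintype_card]
  exact Nat.card_congr
    { toFun := fun u => ⟨⟨u.1, u.2.1⟩, by rw [Subgroup.orderOf_mk]; exact u.2.2⟩
      invFun := fun u => ⟨u.1.1, u.1.2, by rw [Subgroup.orderOf_coe]; exact u.2⟩
      left_inv := fun _ => rfl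
      right_inv := fun _ => rfl }

theorem exists_full_incomparable {n m r t : ℕ} (hn : n ≠ 0) (hr : r.Prime) (ht : t.Prime) (hrt : r ≠ t)
    (hrn : r ∣ n) (htn : t ∣ n) (hm : m ∣ n) (hm1 : m ≠ 1) (hmn : m ≠ n) :
    ∃ k s : ℕ, s.Prime ∧ s ∣ n ∧ k = s ^ n.factorization s ∧ ¬ k ∣ m ∧ ¬ m ∣ k := by
  have hm0 : m ≠ 0 := fun h => hn (Nat.eq_zero_of_zero_dvd (h ▸ hm))
  obtain ⟨s, hs, hsn, hsm⟩ : ∃ s, s.Prime ∧ s ∣ n ∧ ¬ s ^ n.factorization s ∣ m := by
    by_contra hc
    push_neg at hc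
    refine hmn (Nat.dvd_antisymm hm ((Nat.factorization_le_iff_dvd hn hm0).1 fun s => ?_))
    by_cases hs : s.Prime
    · by_cases hsn : s ∣ n
      · exact (hs.pow_dvd_iff_le_factorization hm0).1 (hc s hs hsn)
      · simp [Nat.factorization_eq_zero_of_not_dvd hsn]
    · simp [Nat.factorization_eq_zero_of_not_prime n hs]
  by_cases hmk : m ∣ s ^ n.factorization s
  · obtain ⟨i, -, rfl⟩ := (Nat.dvd_prime_pow hs).1 hmk
    obtain ⟨u, hu, hun, hus⟩ : ∃ u, u.Prime ∧ u ∣ n ∧ u ≠ s := by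
      by_cases h : r = s
      · exact ⟨t, ht, htn, fun e => hrt (h.trans e.symm)⟩
      · exact ⟨r, hr, hrn, h⟩
    have hi : i ≠ 0 := fun h => hm1 (by rw [h, pow_zero])
    refine ⟨_, u, hu, hun, rfl, fun h => ?_, fun h => ?_⟩
    · exact hus ((Nat.prime_dvd_prime_iff_eq hu hs).1 (hu.dvd_of_dvd_pow
        ((dvd_pow_self u (hu.factorization_pos_of_dvd hn hun).ne').trans h)))
    · exact hus ((Nat.prime_dvd_prime_iff_eq hs hu).1 (hs.dvd_of_dvd_pow ((dvd_pow_self s hi).trans h))).symm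
  · exact ⟨_, s, hs, hsn, rfl, hsm, hmk⟩

set_option maxHeartbeats 1000000 in
theorem exists_orderOf_mul_aux (e : G ≃ H) (he : ∀ x y, Adj x y ↔ Adj (e x) (e y)) (he1 : e 1 = 1)
    {p q : ℕ} (hp : p.Prime) (hq : q.Prime) (hpq : p < q) (h : ∃ g : G, orderOf g = p * q) :
    ∃ h : H, orderOf h = p * q := by
  classical
  haveI := Fintype.ofFinite G
  obtain ⟨g₀, hg₀, hmaxg⟩ := (Finset.univ.filter fun g : G => p * q ∣ orderOf g).exists_max_image orderOf
    (by obtain ⟨g, hg⟩ := h; exact ⟨g, by simp [hg]⟩)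
  simp only [Finset.mem_filter, Finset.mem_univ, true_and] at hg₀ hmaxg
  set n := orderOf g₀ with hn
  have hn0 : n ≠ 0 := (orderOf_pos g₀).ne'
  have hpn : p ∣ n := (dvd_mul_right p q).trans hg₀
  have hqn : q ∣ n := (dvd_mul_left q p).trans hg₀
  have hn1 : 1 < n := lt_of_lt_of_le hp.one_lt (Nat.le_of_dvd (Nat.pos_of_ne_zero hn0) hpn)
  -- the closed neighbourhood of an element of order `n` is its cyclic subgroup
  have hN : ∀ c : G, orderOf c = n → ∀ y, Adj c y → y ∈ Subgroup.zpowers c := by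
    intro c hc y hy
    rcases hy with hy | hy
    · have h1 : orderOf c ∣ orderOf y := orderOf_dvd_of_mem_zpowers hy
      have h2 : orderOf y ≤ n := hmaxg y (hg₀.trans (hc ▸ h1))
      have h3 : orderOf y = orderOf c :=
        le_antisymm (hc ▸ h2) (Nat.le_of_dvd (orderOf_pos y) h1)
      exact zpowers_le_of_dvd (g := y) (Subgroup.mem_zpowers y) hy h3.dvd
    · exact hy
  set C : Finset G := Finset.univ.filter fun c => c ∈ Subgroup.zpowers g₀ ∧ orderOf c = n with hC
  have hgC : g₀ ∈ C := Finset.mem_filter.2 ⟨Finset.mem_univ _, Subgroup.mem_zpowers _, rfl⟩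
  obtain ⟨g, hgC', hgmax⟩ := C.exists_max_image (fun c => orderOf (e c)) ⟨g₀, hgC⟩
  obtain ⟨hgg, hgn⟩ := (Finset.mem_filter.1 hgC').2
  set K := Subgroup.zpowers g with hK
  have hKg : ∀ z, Adj g z → z ∈ K := hN g hgn
  have hg0K : g₀ ∈ K := zpowers_le_of_dvd (Subgroup.mem_zpowers g₀) hgg (by rw [hgn])
  set d := orderOf (e g) with hd
  -- generators of `K` have images of order at most `d`
  have hgen : ∀ z ∈ K, orderOf z = n → orderOf (e z) ≤ d := fun z hz hzn =>
    hgmax z (Finset.mem_filter.2 ⟨Finset.mem_univ _, (Subgroup.zpowers_le.2 hgg) hz, hzn⟩)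
  have htwin : ∀ z ∈ K, orderOf z = n → ∀ w, Adj g w ↔ Adj z w := fun z hz hzn w => by
    have h1 : g ∈ Subgroup.zpowers z :=
      zpowers_le_of_dvd (Subgroup.mem_zpowers g) hz (by rw [hzn, hgn])
    constructor
    · intro hw; exact Or.inr (Subgroup.zpowers_le.2 h1 (hKg w hw))
    · intro hw; exact Or.inr (Subgroup.zpowers_le.2 hz (hN z hzn w hw))
  suffices hd' : ∃ y : H, p * q ∣ orderOf y by
    obtain ⟨y, hy⟩ := hd'
    obtain ⟨u, -, hu⟩ := exists_mem_orderOf_eq hy
    exact ⟨u, hu⟩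
  by_cases hA : ∀ z ∈ K, e z ∈ Subgroup.zpowers (e g)
  · -- the image of `K` is the cyclic group generated by `e g`
    refine ⟨e g, ?_⟩
    have hcard : Nat.card K = Nat.card (Subgroup.zpowers (e g)) := Nat.card_congr
      { toFun := fun z => ⟨e z, hA z z.2⟩
        invFun := fun w => ⟨e.symm w, hKg _ ((he _ _).2 (by rw [e.apply_symm_apply]; exact Or.inr w.2))⟩
        left_inv := fun z => Subtype.ext (e.symm_apply_apply _)
        right_inv := fun w => Subtype.ext (e.apply_symm_apply _) }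
    rw [hK, Nat.card_zpowers, Nat.card_zpowers, hgn] at hcard
    rwa [← hcard]
  exfalso
  push_neg at hA
  obtain ⟨z₀, hz₀K, hz₀⟩ := hA
  set P : G → Prop := fun z => e z ∉ Subgroup.zpowers (e g) with hP
  have hup : ∀ z ∈ K, P z → e g ∈ Subgroup.zpowers (e z) := fun z hz hPz =>
    ((he g z).1 (Or.inr hz)).resolve_right hPz
  have hstrict : ∀ z ∈ K, P z → d < orderOf (e z) := fun z hz hPz => by
    refine lt_of_le_of_ne (Nat.le_of_dvd (orderOf_pos _) (orderOf_dvd_of_mem_zpowers (hup z hz hPz))) fun heq => ?_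
    exact hPz (zpowers_le_of_dvd (g := e z) (Subgroup.mem_zpowers _) (hup z hz hPz) heq.symm.dvd)
  have hne : ∀ z ∈ K, P z → orderOf z ≠ n ∧ orderOf z ≠ 1 := fun z hz hPz => by
    refine ⟨fun hzn => (hstrict z hz hPz).not_ge (hgen z hz hzn), fun hz1 => hPz ?_⟩
    rw [orderOf_eq_one_iff.1 hz1, he1]; exact one_mem _
  have hclosed : ∀ z ∈ K, ∀ k ∈ K, P z → ¬ Adj z k → P k := fun z hz k hk hPz hzk hk' =>
    hzk ((he z k).2 (Or.inr (Subgroup.zpowers_le.2 (hup z hz hPz) hk')))
  have hz₀' := hne z₀ hz₀K hz₀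
  have hdvdK : ∀ z ∈ K, orderOf z ∣ n := fun z hz => hgn ▸ orderOf_dvd_of_mem_zpowers hz
  obtain ⟨k, s, hs, hsn, rfl, hk1, hk2⟩ := exists_full_incomparable hn0 hp hq hpq.ne hpn hqn
    (hdvdK z₀ hz₀K) hz₀'.2 hz₀'.1
  obtain ⟨x, hxK, hx⟩ := exists_mem_orderOf_eq (g := g) (k := s ^ n.factorization s)
    (hgn.symm ▸ Nat.ordProj_dvd n s)
  have hxP : P x := hclosed z₀ hz₀K x hxK hz₀ fun h => by
    rcases (adj_iff_dvd hz₀K hxK).1 h with h | h <;> rw [hx] at h
    exacts [hk2 h, hk1 h]
  have hincprime : ∀ s u : ℕ, s.Prime → u.Prime → s ∣ n → u ∣ n → s ≠ u → ∀ x y : G, x ∈ K → y ∈ K →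
      orderOf x = s ^ n.factorization s → orderOf y = u ^ n.factorization u → ¬ Adj x y := by
    intro s u hs hu hsn hun hsu x y hx' hy' hx hy h
    rcases (adj_iff_dvd hx' hy').1 h with h | h <;> rw [hx, hy] at h
    · exact hsu ((Nat.prime_dvd_prime_iff_eq hs hu).1 (hs.dvd_of_dvd_pow
        ((dvd_pow_self s (hs.factorization_pos_of_dvd hn0 hsn).ne').trans h)))
    · exact hsu ((Nat.prime_dvd_prime_iff_eq hu hs).1 (hu.dvd_of_dvd_pow
        ((dvd_pow_self u (hu.factorization_pos_of_dvd hn0 hun).ne').trans h))).symm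
  -- every full prime part lies strictly above
  have hfull : ∀ u : ℕ, u.Prime → u ∣ n → ∀ y ∈ K, orderOf y = u ^ n.factorization u → P y := by
    intro u hu hun y hy hyo
    by_cases hsu : s = u
    · subst hsu
      obtain ⟨v, hv, hvn, hvs⟩ : ∃ v, v.Prime ∧ v ∣ n ∧ v ≠ s := by
        by_cases h : p = s
        · exact ⟨q, hq, hqn, fun e' => hpq.ne (h.trans e'.symm)⟩
        · exact ⟨p, hp, hpn, h⟩
      obtain ⟨w, hwK, hw⟩ := exists_mem_orderOf_eq (g := g) (k := v ^ n.factorization v)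
        (hgn.symm ▸ Nat.ordProj_dvd n v)
      have hwP : P w := hclosed x hxK w hwK hxP (hincprime s v hs hv hsn hvn hvs.symm x w hxK hwK hx hw)
      exact hclosed w hwK y hy hwP (hincprime v s hv hs hvn hsn hvs w y hwK hy hw hyo)
    · exact hclosed x hxK y hy hxP (hincprime s u hs hu hsn hun hsu x y hxK hy hx hyo)
  have hall : ∀ w ∈ K, orderOf w ≠ 1 → orderOf w ≠ n → P w := by
    intro w hw hw1 hwn
    obtain ⟨k, u, hu, hun, rfl, hk1, hk2⟩ := exists_full_incomparable hn0 hp hq hpq.ne hpn hqn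
      (hdvdK w hw) hw1 hwn
    obtain ⟨y, hy, hyo⟩ := exists_mem_orderOf_eq (g := g) (k := u ^ n.factorization u)
      (hgn.symm ▸ Nat.ordProj_dvd n u)
    refine hclosed y hy w hw (hfull u hu hun y hy hyo) fun h => ?_
    rcases (adj_iff_dvd hy hw).1 h with h | h <;> rw [hyo] at h
    exacts [hk1 h, hk2 h]
  -- nontrivial elements of `⟨e g⟩` are twins of `e g`
  have htw : ∀ v ∈ Subgroup.zpowers (e g), v ≠ 1 → ∀ w, Adj (e g) w ↔ Adj v w := by
    intro v hv hv1 w
    have hz : e.symm v ∈ K := hKg _ ((he _ _).2 (by rw [e.apply_symm_apply]; exact Or.inr hv))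
    have hzn : orderOf (e.symm v) = n := by
      by_contra hzn
      have hz1 : orderOf (e.symm v) ≠ 1 := fun h1 => hv1 (by
        rw [← e.apply_symm_apply v, orderOf_eq_one_iff.1 h1, he1])
      have := hall _ hz hz1 hzn
      rw [hP] at this
      exact this (by rw [e.apply_symm_apply]; exact hv)
    have := htwin _ hz hzn (e.symm w)
    rwa [he g, he (e.symm v), e.apply_symm_apply, e.apply_symm_apply] at this
  have hg1 : e g ≠ 1 := fun h1 => by
    have : g = 1 := e.injective (h1.trans he1.symm)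
    rw [this, orderOf_one] at hgn
    exact hn1.ne hgn
  -- `d - 1 = φ n`
  have hphi : n.totient + 1 = d := by
    have h2 : Nat.card {u : G // u ∈ K ∧ orderOf u = n} = n.totient := by
      rw [← hgn]; exact card_generators g
    let φ : Option {u : G // u ∈ K ∧ orderOf u = n} → Subgroup.zpowers (e g) := fun o => o.elim 1 fun u =>
      ⟨e u.1, by
        by_contra hc
        exact (hne u.1 u.2.1 hc).1 u.2.2⟩
    have hφ : Function.Bijective φ := by
      refine ⟨?_, fun v => ?_⟩
      · rintro (_ | a) (_ | b) hab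
        · rfl
        · have h4 : e 1 = e b.1 := he1.trans (congrArg Subtype.val hab)
          have h5 := b.2.2
          rw [← e.injective h4, orderOf_one] at h5
          exact absurd h5 hn1.ne
        · have h4 : e a.1 = e 1 := (congrArg Subtype.val hab).trans he1.symm
          have h5 := a.2.2
          rw [e.injective h4, orderOf_one] at h5
          exact absurd h5 hn1.ne
        · exact congrArg some (Subtype.ext (e.injective (congrArg Subtype.val hab)))
      · by_cases hv1 : v = 1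
        · exact ⟨none, hv1.symm⟩
        · have hz : e.symm (v : H) ∈ K := hKg _ ((he _ _).2 (by rw [e.apply_symm_apply]; exact Or.inr v.2))
          refine ⟨some ⟨e.symm v, hz, ?_⟩, Subtype.ext (e.apply_symm_apply _)⟩
          by_contra hzn
          have hz1 : orderOf (e.symm (v : H)) ≠ 1 := fun h1 => hv1 (Subtype.ext (by
            rw [← e.apply_symm_apply (v : H), orderOf_eq_one_iff.1 h1, he1]; rfl))
          have := hall _ hz hz1 hzn
          rw [hP] at this
          exact this (by rw [e.apply_symm_apply]; exact v.2)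
    have h6 := Nat.card_congr (Equiv.ofBijective φ hφ)
    rw [Finite.card_option, h2, Nat.card_zpowers] at h6
    exact h6
  -- an element of order `p` in `K`
  obtain ⟨a, haK, ha⟩ := exists_mem_orderOf_eq (g := g) (k := p) (hgn.symm ▸ hpn)
  have hpn' : p ≠ n := fun h => (Nat.lt_of_lt_of_le (lt_mul_of_one_lt_right hp.pos hq.one_lt)
    (Nat.le_of_dvd (Nat.pos_of_ne_zero hn0) hg₀)).ne h
  have haP : P a := hall a haK (by rw [ha]; exact hp.ne_one) (by rw [ha]; exact hpn')
  set y := e a with hy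
  set m := orderOf y with hm
  have hdm : d ∣ m := orderOf_dvd_of_mem_zpowers (hup a haK haP)
  have hlt : d < m := hstrict a haK haP
  -- upper bound
  have hupper : m.totient ≤ p - 1 := by
    have h1 := card_generators y
    have h2 := card_generators a
    rw [ha, Nat.totient_prime hp] at h2
    rw [← hm] at h1
    rw [← h1, ← h2]
    refine Nat.card_le_card_of_injective (fun u => (⟨e.symm u.1, ?_⟩ : {z : G // z ∈ Subgroup.zpowers a ∧ orderOf z = p})) ?_
    swap
    · intro u v huv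
      exact Subtype.ext (e.symm.injective (congrArg Subtype.val huv))
    have hyu : y ∈ Subgroup.zpowers u.1 :=
      zpowers_le_of_dvd (Subgroup.mem_zpowers y) u.2.1 (by rw [u.2.2])
    have hzK : e.symm u.1 ∈ K := hKg _ ((he _ _).2 (by
      rw [e.apply_symm_apply]; exact Or.inl (Subgroup.zpowers_le.2 hyu (hup a haK haP))))
    have hzP : P (e.symm u.1) := fun hc => haP (by
      rw [e.apply_symm_apply] at hc
      exact Subgroup.zpowers_le.2 hc hyu)
    have htwa : ∀ w, Adj a w ↔ Adj (e.symm u.1) w := fun w => by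
      rw [he a, he (e.symm u.1), e.apply_symm_apply]
      constructor
      · rintro (h | h)
        · exact Or.inl (Subgroup.zpowers_le.2 h u.2.1)
        · exact Or.inr (Subgroup.zpowers_le.2 hyu h)
      · rintro (h | h)
        · exact Or.inl (Subgroup.zpowers_le.2 h hyu)
        · exact Or.inr (Subgroup.zpowers_le.2 u.2.1 h)
    set z := e.symm u.1 with hz
    obtain ⟨hzn, hz1⟩ := hne z hzK hzP
    have hdv : ∀ k, k ∣ n → ((p ∣ k ∨ k ∣ p) ↔ (orderOf z ∣ k ∨ k ∣ orderOf z)) := fun k hk => by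
      obtain ⟨w, hwK, hw⟩ := exists_mem_orderOf_eq (g := g) (k := k) (hgn.symm ▸ hk)
      rw [← ha, ← hw, ← adj_iff_dvd haK hwK, ← adj_iff_dvd hzK hwK]
      exact htwa w
    have hpz : p ∣ orderOf z := by
      rcases (hdv p hpn).1 (Or.inl dvd_rfl) with h | h
      · exact ((Nat.dvd_prime hp).1 h).resolve_left hz1 |>.symm.dvd
      · exact h
    have hzp : orderOf z = p := by
      by_contra hne'
      by_cases hsg : ∃ t, t.Prime ∧ t ∣ orderOf z ∧ t ≠ p
      · obtain ⟨t, ht, htz, htp⟩ := hsg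
        rcases (hdv t (htz.trans (hdvdK z hzK))).2 (Or.inr htz) with h | h
        · exact htp ((Nat.prime_dvd_prime_iff_eq hp ht).1 h).symm
        · exact htp ((Nat.prime_dvd_prime_iff_eq ht hp).1 h)
      · push_neg at hsg
        rcases (hdv (p * q) hg₀).1 (Or.inl (dvd_mul_right p q)) with h | h
        · -- `orderOf z` is a power of `p` dividing `p * q`
          rcases (Nat.dvd_mul).1 h with ⟨i, j, hi, hj, hij⟩
          rcases (Nat.dvd_prime hq).1 hj with rfl | rfl
          · rcases (Nat.dvd_prime hp).1 hi with rfl | rfl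
            · exact hz1 (by rw [← hij, one_mul])
            · exact hne' (by rw [← hij, mul_one])
          · exact hpq.ne' (hsg j hq (by rw [← hij]; exact dvd_mul_left _ _))
        · exact hpq.ne' (hsg q hq ((dvd_mul_left q p).trans h))
    exact ⟨zpowers_le_of_dvd hzK haK (by rw [hzp, ha]), hzp⟩
  -- lower bound
  have hlower : n.totient ≤ m.totient := by
    have hd1 : d ≠ 1 := fun h1 => hg1 (orderOf_eq_one_iff.1 h1)
    have hd0 : d ≠ 0 := (orderOf_pos (e g)).ne'
    have hm0 : 0 < m := orderOf_pos y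
    obtain ⟨r, hr, hrd⟩ := Nat.exists_prime_and_dvd hd1
    have hmem : e g ∈ Subgroup.zpowers y := hup a haK haP
    obtain ⟨v, hvg, hv⟩ := exists_mem_orderOf_eq (g := e g) hrd
    have hv1 : v ≠ 1 := fun h1 => hr.ne_one (by rw [← hv, h1, orderOf_one])
    have honly : ∀ t, t.Prime → t ∣ d → t = r := fun t ht htd => by
      obtain ⟨w, hwg, hw⟩ := exists_mem_orderOf_eq (g := e g) htd
      rcases (adj_iff_dvd hvg hwg).1 ((htw v hvg hv1 w).1 (Or.inr hwg)) with h | h <;> rw [hv, hw] at h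
      · exact ((Nat.prime_dvd_prime_iff_eq hr ht).1 h).symm
      · exact (Nat.prime_dvd_prime_iff_eq ht hr).1 h
    obtain ⟨a', ha'⟩ : ∃ i, d = r ^ i := ⟨_, Nat.eq_prime_pow_of_unique_prime_dvd hd0 fun hq hqd => honly _ hq hqd⟩
    rcases Nat.lt_or_ge a' 2 with hlt2 | hge
    · interval_cases a'
      · exact absurd (by rw [ha', pow_zero]) hd1
      · rw [pow_one] at ha'
        have h1 := Nat.le_of_dvd (Nat.totient_pos.2 hm0) (Nat.totient_dvd_of_dvd hdm)
        rw [ha', Nat.totient_prime hr] at h1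
        omega
    · have honly' : ∀ t, t.Prime → t ∣ m → t = r := fun t ht htm => by
        by_contra hne'
        obtain ⟨w, hwy, hw⟩ := exists_mem_orderOf_eq (g := y) (k := r * t)
          (((Nat.coprime_primes hr ht).2 (Ne.symm hne')).mul_dvd_of_dvd_of_dvd (hrd.trans hdm) htm)
        have hvy : v ∈ Subgroup.zpowers y := Subgroup.zpowers_le.2 hmem hvg
        have hvw : v ∈ Subgroup.zpowers w := zpowers_le_of_dvd hvy hwy (by rw [hv, hw]; exact dvd_mul_right r t)
        rcases (adj_iff_dvd hmem hwy).1 ((htw v hvg hv1 w).2 (Or.inl hvw)) with h | h <;> rw [hw] at h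
        · have h' : r * r ∣ r * t := (pow_two r ▸ pow_dvd_pow r hge).trans (ha' ▸ h)
          exact hne' ((Nat.prime_dvd_prime_iff_eq hr ht).1 ((Nat.mul_dvd_mul_iff_left hr.pos).1 h')).symm
        · exact hne' (honly t ht ((dvd_mul_left t r).trans h))
      obtain ⟨b, hb⟩ : ∃ i, m = r ^ i := ⟨_, Nat.eq_prime_pow_of_unique_prime_dvd hm0.ne' fun hq hqd => honly' _ hq hqd⟩
      have hab : a' < b := (Nat.pow_lt_pow_iff_right hr.one_lt).1 (ha' ▸ hb ▸ hlt)
      rw [hb, Nat.totient_prime_pow hr (by omega)]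
      have h1 : r ^ a' ≤ r ^ (b - 1) := Nat.pow_le_pow_right hr.pos (by omega)
      have h2 : 1 ≤ r - 1 := by have := hr.two_le; omega
      calc n.totient ≤ r ^ a' := by omega
        _ ≤ r ^ (b - 1) * 1 := by rw [mul_one]; exact h1
        _ ≤ r ^ (b - 1) * (r - 1) := Nat.mul_le_mul_left _ h2
  have h1 : (p * q).totient ≤ n.totient :=
    Nat.le_of_dvd (Nat.totient_pos.2 (Nat.pos_of_ne_zero hn0)) (Nat.totient_dvd_of_dvd hg₀)
  rw [Nat.totient_mul ((Nat.coprime_primes hp hq).2 hpq.ne), Nat.totient_prime hp, Nat.totient_prime hq] at h1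
  have h2 : 2 ≤ q - 1 := by have := hp.two_le; omega
  have h3 : 1 ≤ p - 1 := by have := hp.two_le; omega
  nlinarith

theorem exists_orderOf_mul (e : G ≃ H) (he : ∀ x y, Adj x y ↔ Adj (e x) (e y))
    {p q : ℕ} (hp : p.Prime) (hq : q.Prime) (hpq : p ≠ q) (h : ∃ g : G, orderOf g = p * q) :
    ∃ h : H, orderOf h = p * q := by
  classical
  have huniv : ∀ y : H, Adj (e 1) y := fun y => by
    obtain ⟨x, rfl⟩ := e.surjective y
    exact (he 1 x).1 (adj_one x)
  let σ := Equiv.swap (e 1) (1 : H)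
  have hσ : ∀ u v : H, Adj u v → Adj (σ u) (σ v) := by
    intro u v huv
    have hu : ∀ x, x = e 1 ∨ x = 1 → ∀ y, Adj x y := by
      rintro x (rfl | rfl) y
      exacts [huniv y, adj_one y]
    by_cases h1 : u = e 1 ∨ u = 1
    · refine hu _ ?_ _
      rcases h1 with rfl | rfl
      exacts [Or.inr (Equiv.swap_apply_left _ _), Or.inl (Equiv.swap_apply_right _ _)]
    by_cases h2 : v = e 1 ∨ v = 1
    · refine (hu _ ?_ _).symm
      rcases h2 with rfl | rfl
      exacts [Or.inr (Equiv.swap_apply_left _ _), Or.inl (Equiv.swap_apply_right _ _)]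
    push_neg at h1 h2
    rwa [Equiv.swap_apply_of_ne_of_ne h1.1 h1.2, Equiv.swap_apply_of_ne_of_ne h2.1 h2.2]
  have he' : ∀ x y, Adj x y ↔ Adj (e.trans σ x) (e.trans σ y) := fun x y =>
    ⟨fun h => hσ _ _ ((he x y).1 h), fun h => (he x y).2 (by
      have := hσ _ _ h
      simpa [σ] using this)⟩
  have he1 : e.trans σ 1 = 1 := Equiv.swap_apply_left _ _
  rcases hpq.lt_or_gt with hlt | hlt
  · exact exists_orderOf_mul_aux _ he' he1 hp hq hlt h
  · rw [mul_comm] at h ⊢
    exact exists_orderOf_mul_aux _ he' he1 hq hp hlt h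

end CfsgLib.PowerGraph

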